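import Cfsg.Agent.H780.P9.Iface

/-!
# S5925, box H: the WP lemma of `plS2` (helper377)

`plS2` undoes the torus gauge `p = gau 1 (tau m) q`: with `y = m` the six new registers are
`q03, q23, q13, q04, q24, q14`.
-/

set_option autoImplicit false
set_option linter.style.longLine false

namespace Cfsg.Agent.H377.P9
open Matrix Cfsg.Agent.H879.E83 Cfsg.Agent.H780.P9

section
variable {F : Type*} [Field F] {g : F} {q p : Mt F} {m : F} {t : Fin 10 → F}

theorem st3 {m x : F} (hm : m ^ 80 = 1) : m ^ 79 * (m * x) = x := by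
  linear_combination x * hm

theorem st4 {m x : F} (hm : m ^ 80 = 1) : (m ^ 3) ^ 3 * (m ^ 71 * x) = x := by
  linear_combination x * hm

theorem p_low (c : Ctx g q p m t) : p 0 0 = q 0 0 ∧ p 0 2 = q 0 2 ∧ p 2 2 = q 2 2 ∧ p 0 3 = m * q 0 3 ∧
    p 2 3 = m * q 2 3 ∧ p 1 3 = m * q 1 3 ∧ p 0 4 = m ^ 71 * q 0 4 ∧ p 2 4 = m ^ 71 * q 2 4 ∧
    p 1 4 = m ^ 71 * q 1 4 := by
  refine ⟨?_, ?_, ?_, ?_, ?_, ?_, ?_, ?_, ?_⟩
  · rw [c.papp]; change (1 : F) * 1 * _ = _; ring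
  · rw [c.papp]; change (1 : F) * 1 * _ = _; ring
  · rw [c.papp]; change (1 : F) * 1 * _ = _; ring
  · rw [c.papp]; change (1 : F) * m * _ = _; ring
  · rw [c.papp]; change (1 : F) * m * _ = _; ring
  · rw [c.papp]; change (1 : F) * m * _ = _; ring
  · rw [c.papp]; change (1 : F) * m ^ 71 * _ = _; ring
  · rw [c.papp]; change (1 : F) * m ^ 71 * _ = _; ring
  · rw [c.papp]; change (1 : F) * m ^ 71 * _ = _; ring

theorem wp_S2 (c : Ctx g q p m t) (h : WS3 g q p t 0 0) : WS2 g q p t := by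
  obtain ⟨e00, e02, e22, e03, e23, e13, e04, e24, e14⟩ := p_low c
  have hm := c.m80
  unfold WS2 plS2
  refine WP_exn m hm ?_
  refine WP_df (x := q 0 3) ?_ ?_
  · change m ^ 79 * p 0 3 = _
    rw [e03]; exact st3 hm
  refine WP_df (x := q 2 3) ?_ ?_
  · change m ^ 79 * p 2 3 = _
    rw [e23]; exact st3 hm
  refine WP_df (x := q 1 3) ?_ ?_
  · change m ^ 79 * p 1 3 = _
    rw [e13]; exact st3 hm
  refine WP_df (x := q 0 4) ?_ ?_
  · change (m ^ 3) ^ 3 * p 0 4 = _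
    rw [e04]; exact st4 hm
  refine WP_df (x := q 2 4) ?_ ?_
  · change (m ^ 3) ^ 3 * p 2 4 = _
    rw [e24]; exact st4 hm
  refine WP_df (x := q 1 4) ?_ ?_
  · change (m ^ 3) ^ 3 * p 1 4 = _
    rw [e14]; exact st4 hm
  refine WP_sel (ls' := LS3 q) ?_ h
  change [p 0 0, p 0 2, p 2 2, q 0 3, q 2 3, q 1 3, q 0 4, q 2 4, q 1 4] = LS3 q
  rw [e00, e02, e22]; rfl

end
end Cfsg.Agent.H377.P9
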