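import Cfsg.Agent.H377.P9.STwo

/-!
# S5925, box H: the WP lemmas of `plS2i`, `plS2j` (helper377)

In the branch `q01 = q12 = 0` the gauge parameter `m` is one of four powers of `g`.
-/

set_option autoImplicit false
set_option linter.style.longLine false

namespace Cfsg.Agent.H377.P9
open Matrix Cfsg.Agent.H879.E83 Cfsg.Agent.H780.P9

section
variable {F : Type*} [Field F] {g : F} {q p : Mt F} {m : F} {t : Fin 10 → F}

/-- the common shape of `plS2i`, `plS2j` -/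
def S2k (es : List Ex) (P : Plan) : Plan :=
  .alt es (.kf (.mul (.k 38) (.mul (.mul (.mul (.fr (.k 38)) (.fr (.fr (.k 38)))) (.fr (.fr (.fr (.k 38))))) (.mul (.mul (.fr (.k 38)) (.fr (.fr (.k 38)))) (.fr (.fr (.fr (.k 38)))))))
    (.df (.mul (.k 39) (.v 3)) (.df (.mul (.k 39) (.v 6)) (.df (.mul (.k 39) (.k 17))
      (.df (.mul (.fr (.fr (.k 38))) (.v 5)) (.df (.mul (.fr (.fr (.k 38))) (.v 4)) (.df (.mul (.fr (.fr (.k 38))) (.k 18))
        (.sel [0, 1, 2, 7, 8, 9, 10, 11, 12] P))))))))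

theorem wp_S2k {G : Prop} (c : Ctx g q p m t) {es : List Ex} {P : Plan} (e : Ex) (he : e ∈ es)
    (hx : ∀ ks ls, e.eval g ks ls = m) (h : WP g G P (K40 g p t m (m ^ 79)) (LS3 q)) :
    WP g G (S2k es P) (K38 g p t) (LS2 p) := by
  obtain ⟨e00, e02, e22, e03, e23, e13, e04, e24, e14⟩ := p_low c
  have hm := c.m80
  unfold S2k
  refine WP_alt e he (hx _ _) ?_
  refine WP_kf (x := m ^ 79) ?_ ?_
  · change m * (m ^ 3 * (m ^ 3) ^ 3 * ((m ^ 3) ^ 3) ^ 3 * (m ^ 3 * (m ^ 3) ^ 3 * ((m ^ 3) ^ 3) ^ 3)) = m ^ 79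
    ring
  refine WP_df (x := q 0 3) ?_ ?_
  · change m ^ 79 * p 0 3 = _
    rw [e03]; exact st3 hm
  refine WP_df (x := q 2 3) ?_ ?_
  · change m ^ 79 * p 2 3 = _
    rw [e23]; exact st3 hm
  refine WP_df (x := q 1 3) ?_ ?_
  · change m ^ 79 * p 1 3 = _
    rw [e13]; exact st3 hm
  refine WP_df (x := q 0 4) ?_ ?_
  · change (m ^ 3) ^ 3 * p 0 4 = _
    rw [e04]; exact st4 hm
  refine WP_df (x := q 2 4) ?_ ?_
  · change (m ^ 3) ^ 3 * p 2 4 = _
    rw [e24]; exact st4 hm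
  refine WP_df (x := q 1 4) ?_ ?_
  · change (m ^ 3) ^ 3 * p 1 4 = _
    rw [e14]; exact st4 hm
  refine WP_sel (ls' := LS3 q) ?_ h
  change [p 0 0, p 0 2, p 2 2, q 0 3, q 2 3, q 1 3, q 0 4, q 2 4, q 1 4] = LS3 q
  rw [e00, e02, e22]; rfl

theorem m_i (c : Ctx g q p m t) (h13 : p 1 3 = 1) (hq : ∃ i < 4, q 1 3 = g ^ i) :
    m = g ^ 0 ∨ m = g ^ 79 ∨ m = g ^ 78 ∨ m = g ^ 77 := by
  obtain ⟨i, hi, e⟩ := hq
  obtain ⟨-, -, -, -, -, e13, -, -, -⟩ := p_low c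
  have h80 : g ^ 80 = 1 := g80 c.hg c.h3
  rw [h13, e] at e13
  have key : m = g ^ (80 - i) := by
    have e2 : g ^ i * g ^ (80 - i) = 1 := by rw [← pow_add, show i + (80 - i) = 80 by omega]; exact h80
    calc m = m * (g ^ i * g ^ (80 - i)) := by rw [e2, mul_one]
      _ = (m * g ^ i) * g ^ (80 - i) := by ring
      _ = g ^ (80 - i) := by rw [← e13, one_mul]
  rw [key]
  interval_cases i
  · left; rw [pow_zero]; exact h80
  · right; left; rfl
  · right; right; left; rfl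
  · right; right; right; rfl

theorem m_j (c : Ctx g q p m t) (h14 : p 1 4 = 1) (hq : ∃ i < 4, q 1 4 = g ^ i) :
    m = g ^ 0 ∨ m = g ^ 9 ∨ m = g ^ 18 ∨ m = g ^ 27 := by
  obtain ⟨i, hi, e⟩ := hq
  obtain ⟨-, -, -, -, -, -, -, -, e14⟩ := p_low c
  rw [h14, e] at e14
  have e3 : m ^ 9 = g ^ i := by
    calc m ^ 9 = m ^ 9 * (m ^ 71 * g ^ i) := by rw [← e14, mul_one]
      _ = m ^ 80 * g ^ i := by ring
      _ = g ^ i := by rw [c.m80, one_mul]
  have key : m = g ^ (9 * i) := by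
    calc m = m ^ 80 * m := by rw [c.m80, one_mul]
      _ = (m ^ 9) ^ 9 := by ring
      _ = g ^ (9 * i) := by rw [e3, ← pow_mul, mul_comm]
  rw [key]
  interval_cases i
  · left; rfl
  · right; left; rfl
  · right; right; left; rfl
  · right; right; right; rfl

theorem wp_S2k_i {G : Prop} {P : Plan} (c : Ctx g q p m t) (h13 : p 1 3 = 1) (hq : ∃ i < 4, q 1 3 = g ^ i)
    (h : ∀ x y, WP g G P (K40 g p t x y) (LS3 q)) :
    WP g G (S2k [.pw 0, .pw 79, .pw 78, .pw 77] P) (K38 g p t) (LS2 p) := by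
  rcases m_i c h13 hq with e | e | e | e
  · exact wp_S2k c (.pw 0) (by simp) (fun _ _ => e.symm) (h _ _)
  · exact wp_S2k c (.pw 79) (by simp) (fun _ _ => e.symm) (h _ _)
  · exact wp_S2k c (.pw 78) (by simp) (fun _ _ => e.symm) (h _ _)
  · exact wp_S2k c (.pw 77) (by simp) (fun _ _ => e.symm) (h _ _)

theorem wp_S2k_j {G : Prop} {P : Plan} (c : Ctx g q p m t) (h14 : p 1 4 = 1) (hq : ∃ i < 4, q 1 4 = g ^ i)
    (h : ∀ x y, WP g G P (K40 g p t x y) (LS3 q)) :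
    WP g G (S2k [.pw 0, .pw 9, .pw 18, .pw 27] P) (K38 g p t) (LS2 p) := by
  rcases m_j c h14 hq with e | e | e | e
  · exact wp_S2k c (.pw 0) (by simp) (fun _ _ => e.symm) (h _ _)
  · exact wp_S2k c (.pw 9) (by simp) (fun _ _ => e.symm) (h _ _)
  · exact wp_S2k c (.pw 18) (by simp) (fun _ _ => e.symm) (h _ _)
  · exact wp_S2k c (.pw 27) (by simp) (fun _ _ => e.symm) (h _ _)

theorem wp_S2i (c : Ctx g q p m t) (h13 : p 1 3 = 1) (hq : ∃ i < 4, q 1 3 = g ^ i) (h : ∀ x y, WS3 g q p t x y) :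
    WS2x g q p t plS2i := wp_S2k_i c h13 hq h

theorem wp_S2j (c : Ctx g q p m t) (h14 : p 1 4 = 1) (hq : ∃ i < 4, q 1 4 = g ^ i) (h : ∀ x y, WS3 g q p t x y) :
    WS2x g q p t plS2j := wp_S2k_j c h14 hq h

end
end Cfsg.Agent.H377.P9
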